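import Cfsg.Agent.E8A.C72.Data
import Cfsg.Agent.R2.T1.N6D.T1
import Cfsg.Agent.R2.T1.T3.Perm

/-!
# `A₇` in characteristic 2: `f₃ + 4 f₃₃ + 6 f₅ + 8 f₇ ≤ 4 dim` (helper8)

The module splits under the sum `z` of the 3-cycles (Fitting); `blk0` : `z` nilpotent; `blk1` : `z` injective;
`ineq7` : modules without trivial submodules and quotients.
-/

set_option autoImplicit false
set_option maxRecDepth 100000

namespace Cfsg.Agent.E8A.C72

open Module Equiv Equiv.Perm
open Cfsg.Agent.R2.T1 Cfsg.Agent.R2.T1.Odd Cfsg.Agent.R2.T1.Art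
open Cfsg.Agent.R2.T1.N7 (A7 mul_ap inv_ap two_trans' gA6 mem_A6 mem_inv_Tg Tg_le)
open Cfsg.Agent.R2.T1.N6D.I2 (Fx Kp mem_Fx mem_Kp split two0 pa pa' py SS Sdim dimE pcomm)
open Cfsg.Agent.R2.T1.T3 (inc inc_last inc_castSucc exists_inc)
open Cfsg.Agent.H952.F4 (ev)

universe u

section grp

theorem el_six (n : ℕ) : ((el n : A7) : Perm (Fin 7)) 6 = 6 ↔ ap (wn n) 6 = 6 := by
  rw [Fin.ext_iff, el_ap]
  rfl

theorem inc_eq {g : ↥(alternatingGroup (Fin 6))} {n : ℕ} (h : ∀ i : Fin 6, ((g : Perm (Fin 6)) i).val = ap (wn n) i.val)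
    (h6 : ap (wn n) 6 = 6) : (inc g : T3.A 7) = el n := by
  refine Subtype.ext (Perm.ext fun i => ?_)
  refine Fin.lastCases ?_ (fun i => ?_) i
  · rw [inc_last]
    exact ((el_six n).2 h6).symm
  · rw [inc_castSucc]
    exact Fin.ext ((h i).trans (el_ap n i.castSucc).symm)

theorem inc_x : (inc pa : T3.A 7) = el 1680 := inc_eq (by decide +kernel) (by decide)
theorem inc_y : (inc pa' : T3.A 7) = el 56 := inc_eq (by decide +kernel) (by decide)
theorem inc_t : (inc (pa * pa') : T3.A 7) = el 1736 := inc_eq (by decide +kernel) (by decide)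
theorem inc_j : (inc (py * py) : T3.A 7) = el 1687 := inc_eq (by decide +kernel) (by decide)
theorem inc_w : (inc N6D.z5 : T3.A 7) = el 2268 := inc_eq (by decide +kernel) (by decide)

/-- a subgroup which contains `A₆` and `s` -/
theorem top_of {K : Subgroup A7} (h6 : ∀ g : A7, (g : Perm (Fin 7)) 6 = 6 → g ∈ K) (hs : el 2071 ∈ K) (g : A7) : g ∈ K := by
  by_cases hg : (g : Perm (Fin 7)) 6 = 6
  · exact h6 g hg
  · have h1 : ((el 2071 : A7) : Perm (Fin 7)) 6 ≠ 6 := fun h => absurd ((el_six _).1 h) (by decide)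
    obtain ⟨k, hk, hk'⟩ := two_trans' (Ne.symm h1) (Ne.symm hg)
    have h2 : (k * el 2071)⁻¹ * g ∈ K := h6 _ (by rw [mul_ap]; exact inv_ap (by rw [mul_ap, hk']))
    have h3 := mul_mem (mul_mem (h6 k hk) hs) h2
    rwa [mul_inv_cancel_left] at h3

theorem el_P {n : ℕ} {l : List (ℕ × ℕ)} (h : (vl 7 l && cd 7 (wn n) == cd 7 l) = true) : el n = P 7 l := by
  rw [Bool.and_eq_true, beq_iff_eq] at h
  exact (P_eq_iff le_rfl (vl_wn n) h.1).2 h.2

/-- the check of a list of powers -/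
def chn (g : ℕ) : ℕ → List ℕ → Bool
  | _, [] => true
  | a, b :: l => ml g a b && chn g b l

theorem chn_realised : True := by have := @chn.eq_def; trivial

end grp

section lin

variable {F : Type u} [Field F] {M : Type u} [AddCommGroup M] [Module F M] [FiniteDimensional F M]

theorem inj1 (T : Module.End F M) {U V : Submodule F M} (hT : ∀ v, T v ∈ V) (hi : ∀ v ∈ U, T v = 0 → v = 0) :
    finrank F ↥U ≤ finrank F ↥V := by
  refine LinearMap.finrank_le_finrank_of_injective (f := (T.comp U.subtype).codRestrict V fun v => hT v) ?_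
  rw [← LinearMap.ker_eq_bot, LinearMap.ker_eq_bot']
  intro v hv
  exact Subtype.ext (hi v v.2 (congrArg Subtype.val hv))

theorem inj2 (T T' : Module.End F M) {U V V' : Submodule F M} (hT : ∀ v, T v ∈ V) (hT' : ∀ v, T' v ∈ V')
    (hi : ∀ v ∈ U, T v = 0 → T' v = 0 → v = 0) : finrank F ↥U ≤ finrank F ↥V + finrank F ↥V' := by
  rw [← Module.finrank_prod]
  refine LinearMap.finrank_le_finrank_of_injective (f := LinearMap.prod ((T.comp U.subtype).codRestrict V fun v => hT v)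
    ((T'.comp U.subtype).codRestrict V' fun v => hT' v)) ?_
  rw [← LinearMap.ker_eq_bot, LinearMap.ker_eq_bot']
  intro v hv
  exact Subtype.ext (hi v v.2 (congrArg (fun x => (x.1 : M)) hv) (congrArg (fun x => (x.2 : M)) hv))

/-- the fixed spaces on a direct sum -/
theorem ev_le {U V : Submodule F M} (h : IsCompl U V) {T : Module.End F M} {TU : Module.End F ↥U} {TV : Module.End F ↥V}
    (hU : ∀ u, (TU u : M) = T u) (hV : ∀ v, (TV v : M) = T v) : ev T 1 ≤ ev TU 1 + ev TV 1 := by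
  have h1 : Fx T ≤ (Fx TU).map U.subtype ⊔ (Fx TV).map V.subtype := by
    intro m hm
    have h2 : m ∈ U ⊔ V := by rw [h.sup_eq_top]; trivial
    obtain ⟨a, ha, b, hb, rfl⟩ := Submodule.mem_sup.1 h2
    have h3 := mem_Fx.1 hm
    rw [map_add, ← hU ⟨a, ha⟩, ← hV ⟨b, hb⟩] at h3
    have h4 : (TU ⟨a, ha⟩ : M) - a = b - (TV ⟨b, hb⟩ : M) := by
      rw [sub_eq_sub_iff_add_eq_add, h3, add_comm]
    have h5 : (TU ⟨a, ha⟩ : M) - a = 0 :=
      (Submodule.disjoint_def.1 h.disjoint) _ (sub_mem (TU _).2 ha) (h4 ▸ sub_mem hb (TV _).2)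
    refine Submodule.add_mem_sup ⟨⟨a, ha⟩, mem_Fx.2 (Subtype.ext (sub_eq_zero.1 h5)), rfl⟩
      ⟨⟨b, hb⟩, mem_Fx.2 (Subtype.ext (sub_eq_zero.1 (h4 ▸ h5)).symm), rfl⟩
  have h2 := Submodule.finrank_mono h1
  have h3 := Submodule.finrank_add_le_finrank_add_finrank ((Fx TU).map U.subtype) ((Fx TV).map V.subtype)
  rw [Submodule.finrank_map_subtype_eq, Submodule.finrank_map_subtype_eq] at h3
  exact h2.trans h3

end lin

section ops

variable {F : Type u} [Field F] {M : Type u} [AddCommGroup M] [Module F M] {ρ : Representation F A7 M}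

theorem rml {a b c : ℕ} (h : ml a b c = true) (v : M) : ρ (el a) (ρ (el b) v) = ρ (el c) v := by
  rw [← el_mul h, map_mul, Module.End.mul_apply]

theorem r0 (v : M) : ρ (el 0) v = v := by rw [el_zero, map_one, Module.End.one_apply]

theorem S0 (v : M) : S ρ [0] v = v := by rw [S_zero, Module.End.one_apply]

theorem S_cons0 (l : List ℕ) (v : M) : S ρ (0 :: l) v = v + S ρ l v := by
  rw [S_cons, LinearMap.add_apply, r0]

theorem S_two (g : ℕ) (v : M) : S ρ [0, g] v = v + ρ (el g) v := by rw [S_cons0, S_one]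

theorem S_three {g g2 : ℕ} (h : ml g g g2 = true) (v : M) : S ρ [0, g, g2] v = v + ρ (el g) v + ρ (el g) (ρ (el g) v) := by
  rw [S_cons0, S_cons, LinearMap.add_apply, S_one, rml h, add_assoc]

theorem fx_of (h2 : (2 : F) = 0) {g : ℕ} {B : List ℕ} (h : Nat.beq (tot [([g], B), ([0], B)]) 0 = true) (v : M) :
    S ρ B v ∈ Fx (ρ (el g)) := by
  have h1 := cert2 (ρ := ρ) h2 h v
  rw [S_one, S0] at h1
  exact mem_Fx.2 h1

theorem kp_of (h2 : (2 : F) = 0) {g g2 : ℕ} (hm : ml g g g2 = true) {B : List ℕ}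
    (h : Nat.beq (tot [([0, g, g2], B)]) 0 = true) (v : M) : S ρ B v ∈ Kp (ρ (el g)) := by
  have h1 := cert1 (ρ := ρ) h2 h v
  rw [S_three hm] at h1
  exact mem_Kp.2 h1

theorem chn_fix {g : ℕ} {v : M} (hv : ρ (el g) v = v) : ∀ (l : List ℕ) (a : ℕ), ρ (el a) v = v → chn g a l = true →
    ∀ n ∈ l, ρ (el n) v = v := by
  intro l
  induction l with
  | nil => intro a _ _ n hn; exact absurd hn List.not_mem_nil
  | cons b l ih =>
    intro a ha h n hn
    have h' : (ml g a b && chn g b l) = true := h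
    rw [Bool.and_eq_true] at h'
    have hb : ρ (el b) v = v := by rw [← rml h'.1, ha, hv]
    rcases List.mem_cons.1 hn with rfl | hn
    · exact hb
    · exact ih b hb h'.2 n hn

theorem S_fix {v : M} {l : List ℕ} (h : ∀ n ∈ l, ρ (el n) v = v) : S ρ l v = l.length • v := by
  induction l with
  | nil => rw [List.length_nil, zero_smul]; rfl
  | cons n l ih =>
    rw [S_cons, LinearMap.add_apply, h n List.mem_cons_self, ih fun k hk => h k (List.mem_cons_of_mem _ hk),
      List.length_cons, succ_nsmul']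

theorem S_chn (h2 : (2 : F) = 0) {g : ℕ} {v : M} (hv : ρ (el g) v = v) {l : List ℕ} (h : chn g 0 l = true) {k : ℕ}
    (hk : l.length = 2 * k) : S ρ (0 :: l) v = v := by
  rw [S_cons0, S_fix (chn_fix hv l 0 (r0 v) h), hk, mul_nsmul', two_nsmul, two0 h2, add_zero]

theorem S_u (h2 : (2 : F) = 0) {v : M} (hv : v ∈ Fx (ρ (el 2071)) ⊓ Kp (ρ (el 1736))) : S ρ lU v = v := by
  have h1 := cert2 (ρ := ρ) h2 cU v
  have h3 := S_three (ρ := ρ) (g := 1736) (g2 := 889) (by decide +kernel) v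
  rw [mem_Kp.1 hv.2, S_cons0] at h3
  rw [S0, S_chn h2 (mem_Fx.1 hv.1) (by decide +kernel) (k := 3) rfl] at h1
  rw [h1]
  exact (eq_of_add h2 h3).symm

theorem S_9 (h2 : (2 : F) = 0) {v : M} (hv : v ∈ Fx (ρ (el 1680)) ⊓ Fx (ρ (el 56))) : S ρ e9 v = v := by
  have h1 := cert2 (ρ := ρ) h2 c9 v
  rwa [S0, S_chn h2 (mem_Fx.1 hv.2) (by decide +kernel) (k := 1) rfl,
    S_chn h2 (mem_Fx.1 hv.1) (by decide +kernel) (k := 1) rfl] at h1

theorem S_C (h2 : (2 : F) = 0) (v : M) : S ρ lC v = S ρ lZ (S ρ lZ v) := by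
  rw [cert2 (ρ := ρ) h2 cZZ v, S0]

/-- the sum of the 3-cycles is central -/
theorem Z_comm (h2 : (2 : F) = 0) (g : A7) (v : M) : ρ g (S ρ lZ v) = S ρ lZ (ρ g v) := by
  let K : Subgroup A7 :=
    { carrier := {g | ∀ v, ρ g (S ρ lZ v) = S ρ lZ (ρ g v)}
      one_mem' := fun v => by rw [map_one]; rfl
      mul_mem' := fun {a b} ha hb v => by rw [map_mul, Module.End.mul_apply, Module.End.mul_apply, hb, ha]
      inv_mem' := fun {a} ha v => by
        have h1 : ∀ m, ρ a⁻¹ (ρ a m) = m := fun m => by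
          rw [← Module.End.mul_apply, ← map_mul, inv_mul_cancel, map_one, Module.End.one_apply]
        have h3 : ρ a (ρ a⁻¹ v) = v := by
          rw [← Module.End.mul_apply, ← map_mul, mul_inv_cancel, map_one, Module.End.one_apply]
        conv_lhs => rw [← h3, ← ha, h1] }
  have hK : ∀ n ∈ [1680, 2296, 210, 1736, 2071], el n ∈ K := fun n hn v => by
    have h1 := cert2 (ρ := ρ) h2 (List.all_eq_true.1 cZ n hn) v
    rwa [S_one] at h1
  have h6 : Tg 7 gA6 ≤ K := by
    refine Tg_le fun l hl => ?_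
    have hl' : l ∈ [[(0, 1), (1, 2)], [(1, 2), (2, 3), (3, 4), (4, 5)], [(0, 1), (2, 3)],
      [(0, 1), (1, 2), (3, 4), (4, 5)]] := hl
    simp only [List.mem_cons, List.not_mem_nil, or_false] at hl'
    rcases hl' with rfl | rfl | rfl | rfl
    · rw [← el_P (n := 1680) (by decide)]
      exact hK _ (by decide)
    · rw [← el_P (n := 2296) (by decide)]
      exact hK _ (by decide)
    · rw [← el_P (n := 210) (by decide)]
      exact hK _ (by decide)
    · rw [← el_P (n := 1736) (by decide)]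
      exact hK _ (by decide)
  exact top_of (K := K) (fun g hg => h6 (mem_A6.2 hg)) (hK _ (by decide)) g v

/-- no fixed vectors of `A₆` -/
theorem no_inv (h2 : (2 : F) = 0) (hinv : ∀ v : M, (∀ g, ρ g v = v) → v = 0) (hz : ∀ v : M, S ρ lZ v = v → v = 0) {v : M}
    (hv : ∀ g : A7, (g : Perm (Fin 7)) 6 = 6 → ρ g v = v) : v = 0 := by
  have h1 := cert3 (ρ := ρ) h2 cI v
  rw [S_two 1680, S_two 2296, hv _ ((el_six _).2 (by decide)), hv _ ((el_six _).2 (by decide)), two0 h2, map_zero, map_zero,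
    add_zero, S_two, S_cons0] at h1
  let K : Subgroup A7 :=
    { carrier := {g | ρ g (v + S ρ lZ v) = v + S ρ lZ v}
      one_mem' := by show ρ 1 _ = _; rw [map_one]; rfl
      mul_mem' := fun {a b} ha hb => by
        show ρ (a * b) _ = _
        rw [map_mul, Module.End.mul_apply, show ρ b _ = _ from hb, show ρ a _ = _ from ha]
      inv_mem' := fun {a} ha => by
        show ρ a⁻¹ _ = _
        conv_lhs => rw [← show ρ a _ = _ from ha]
        rw [← Module.End.mul_apply, ← map_mul, inv_mul_cancel, map_one, Module.End.one_apply] }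
  have h3 := hinv _ (top_of (K := K) (fun g hg => by
    show ρ g _ = _
    rw [map_add, Z_comm h2, hv g hg]) (eq_of_add h2 h1).symm)
  exact hz v (eq_of_add h2 h3).symm

/-- no fixed linear forms of `A₆` -/
theorem no_co (h2 : (2 : F) = 0) (hco : ∀ f : Module.Dual F M, (∀ g m, f (ρ g m) = f m) → f = 0)
    (hz : ∀ f : Module.Dual F M, (∀ m, f (S ρ lZ m) = f m) → f = 0) {f : Module.Dual F M}
    (hf : ∀ g : A7, (g : Perm (Fin 7)) 6 = 6 → ∀ m, f (ρ g m) = f m) : f = 0 := by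
  have t0 : ∀ a : F, a + a = 0 := fun a => by rw [← two_mul, h2, zero_mul]
  have eq0 : ∀ {a b : F}, a + b = 0 → a = b := fun {a b} h => by rw [← t0 b] at h; exact add_right_cancel h
  let K : Subgroup A7 :=
    { carrier := {g | ∀ m, f (S ρ (0 :: lZ) (ρ g m)) = f (S ρ (0 :: lZ) m)}
      one_mem' := fun m => by rw [map_one]; rfl
      mul_mem' := fun {a b} ha hb m => by rw [map_mul, Module.End.mul_apply, ha, hb]
      inv_mem' := fun {a} ha m => by
        rw [← ha, ← Module.End.mul_apply (ρ a), ← map_mul, mul_inv_cancel, map_one, Module.End.one_apply] }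
  have h3 := hco (f.comp (S ρ (0 :: lZ))) (top_of (K := K) (fun g hg m => by
    rw [S_cons0, S_cons0, ← Z_comm h2, ← map_add, hf g hg]) fun m => by
      have h1 := congrArg f (cert3 (ρ := ρ) h2 cJ m)
      rw [S_two 1680, S_two 2296, S_two, map_add, map_add, map_add, map_add, map_add, hf _ ((el_six _).2 (by decide)),
        hf _ ((el_six _).2 (by decide)), t0, t0, add_zero] at h1
      exact (eq0 h1).symm)
  refine hz f fun m => ?_
  have h4 : f (S ρ (0 :: lZ) m) = 0 := LinearMap.congr_fun h3 m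
  rw [S_cons0, map_add] at h4
  exact (eq0 h4).symm

end ops

section dims

variable {F : Type u} [Field F] [Finite F] {M : Type u} [AddCommGroup M] [Module F M] [FiniteDimensional F M]
  (ρ : Representation F A7 M)

omit [Finite F] in
theorem odd_ne (h2 : (2 : F) = 0) (k : ℕ) : ((2 * k + 1 : ℕ) : F) ≠ 0 := by
  rw [Nat.cast_add, Nat.cast_mul, Nat.cast_ofNat, h2, zero_mul, zero_add, Nat.cast_one]
  exact one_ne_zero

/-- the Frobenius group of order 21 -/
theorem dim21 (h2 : (2 : F) = 0) : finrank F M + 2 * ev (ρ (el 2071)) 1 ≤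
    3 * ev (ρ (el 1736)) 1 + 3 * finrank F ↥(Fx (ρ (el 2071)) ⊓ Kp (ρ (el 1736))) := by
  have h0 := dimC (n := 7) le_rfl c21 c21' (N := 21) (K := 4) rfl rfl (odd_ne h2 10) (c := [1, 3, 3, 14])
    (by decide +kernel) ρ
  rw [Finset.sum_range_succ, Finset.sum_range_succ, Finset.sum_range_succ, Finset.sum_range_succ,
    Finset.sum_range_zero] at h0
  have h1 : ((21 : ℕ) : ℚ) * (finrank F ↥(inv ρ (Tg 7 g21)) : ℚ) = 0 + ((1 : ℕ) : ℚ) * om ρ (P 7 []) +
    ((3 : ℕ) : ℚ) * om ρ (P 7 (wn 2071)) + ((3 : ℕ) : ℚ) * om ρ (P 7 (wn 1627)) +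
    ((14 : ℕ) : ℚ) * om ρ (P 7 (wn 1736)) := h0
  clear h0
  rw [P_nil, om_one, om_prime ρ (r := 7) (by norm_num) (orderOf_P (m := 7) le_rfl (by decide +kernel)),
    om_prime ρ (r := 7) (by norm_num) (orderOf_P (m := 7) le_rfl (by decide +kernel)),
    om_prime ρ Nat.prime_three (orderOf_P (m := 7) le_rfl (by decide +kernel))] at h1
  have h3 : ev (ρ (P 7 (wn 1627))) 1 ≤ ev (ρ (el 2071)) 1 := by
    refine Submodule.finrank_mono fun v hv => mem_Fx.2 ?_
    exact chn_fix (g := 1627) (mem_Fx.1 hv) [1627, 1577, 2518, 1359, 2071] 0 (r0 v) (by decide +kernel) _ (by decide)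
  have h4 : finrank F ↥(Fx (ρ (el 2071)) ⊓ Fx (ρ (el 1736))) ≤ finrank F ↥(inv ρ (Tg 7 g21)) := by
    refine Submodule.finrank_mono fun v hv => mem_inv_Tg fun g hg => ?_
    rcases List.mem_pair.1 hg with rfl | rfl
    · exact mem_Fx.1 hv.1
    · exact mem_Fx.1 hv.2
  have h5 := split h2 (T := ρ (el 1736)) (fun m => by
    rw [rml (c := 889) (by decide +kernel), rml (c := 0) (by decide +kernel), r0]) (Fx (ρ (el 2071))) fun m hm => by
      rw [mem_Fx, rml (c := 2337) (by decide +kernel), ← rml (a := 1736) (b := 1971) (by decide +kernel),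
        chn_fix (mem_Fx.1 hm) e7 0 (r0 m) (by decide +kernel) _ (by decide)]
  have e1 : ev (ρ (el 2071)) 1 = finrank F ↥(Fx (ρ (el 2071))) := rfl
  have e2 : ev (ρ (P 7 (wn 2071))) 1 = ev (ρ (el 2071)) 1 := rfl
  have e3 : ev (ρ (P 7 (wn 1736))) 1 = ev (ρ (el 1736)) 1 := rfl
  rw [e2, e3] at h1
  rw [← e1] at h5
  clear e1 e2 e3
  generalize ev (ρ (P 7 (wn 1627))) 1 = a at *
  generalize ev (ρ (el 2071)) 1 = b at *
  generalize ev (ρ (el 1736)) 1 = c at *
  generalize finrank F ↥(inv ρ (Tg 7 g21)) = d at *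
  generalize finrank F M = e at *
  have h6 : 42 * d + 14 * e = 7 * a + 7 * b + 42 * c := by
    have h7 : (42 * d + 14 * e : ℚ) = 7 * a + 7 * b + 42 * c := by
      push_cast at h1
      linarith only [h1]
    exact_mod_cast h7
  omega

omit [Finite F] in
theorem dim9 (h2 : (2 : F) = 0) : finrank F M + 3 * finrank F ↥(Fx (ρ (el 1680)) ⊓ Fx (ρ (el 56))) =
    2 * (ev (ρ (el 1680)) 1 + ev (ρ (el 1736)) 1) := by
  rw [← inc_x, ← inc_y, ← inc_t]
  exact dimE (MonoidHom.comp ρ (inc : T3.A 6 →* T3.A 7)) h2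

/-- **the principal block** -/
theorem blk0 (h2 : (2 : F) = 0) (hinv : ∀ v : M, (∀ g, ρ g v = v) → v = 0)
    (hco : ∀ f : Module.Dual F M, (∀ g m, f (ρ g m) = f m) → f = 0) {n : ℕ} (hz : S ρ lZ ^ n = 0) :
    ev (ρ (el 1680)) 1 + 4 * ev (ρ (el 1736)) 1 + 6 * ev (ρ (el 2268)) 1 + 8 * ev (ρ (el 2071)) 1 ≤ 4 * finrank F M := by
  have z1 : ∀ v : M, S ρ lZ (S ρ lZ v) = v → v = 0 := fun v hv => by
    have h1 : ∀ k, (S ρ lZ ^ (2 * k)) v = v := fun k => by
      induction k with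
      | zero => rfl
      | succ k ih => rw [mul_add, pow_add, mul_one, Module.End.mul_apply, pow_two, Module.End.mul_apply, hv, ih]
    rw [← h1 n, two_mul, pow_add, hz, zero_mul, LinearMap.zero_apply]
  have z2 : ∀ f : Module.Dual F M, (∀ m, f (S ρ lZ m) = f m) → f = 0 := fun f hf => by
    have h1 : ∀ k m, f ((S ρ lZ ^ k) m) = f m := fun k => by
      induction k with
      | zero => exact fun _ => rfl
      | succ k ih => intro m; rw [pow_succ', Module.End.mul_apply, hf, ih]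
    refine LinearMap.ext fun m => ?_
    rw [← h1 n, hz, LinearMap.zero_apply, map_zero, LinearMap.zero_apply]
  have k1 := N6D.I2.ineq6 h2 M (MonoidHom.comp ρ (inc : T3.A 6 →* T3.A 7)) (by
    rw [eq_bot_iff]
    intro v hv
    refine no_inv (ρ := ρ) h2 hinv (fun m hm => z1 m (by rw [hm, hm])) fun g hg => ?_
    obtain ⟨g', rfl⟩ := exists_inc (n := 6) g hg
    exact hv g') fun f hf => no_co (ρ := ρ) h2 hco z2 fun g hg => by
      obtain ⟨g', rfl⟩ := exists_inc (n := 6) g hg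
      exact hf g'
  have k1' : 4 * (ev (ρ (el 1680)) 1 + ev (ρ (el 1736)) 1) + 12 * ev (ρ (el 2268)) 1 ≤ 5 * finrank F M := by
    rw [← inc_x, ← inc_t, ← inc_w]
    exact k1
  have k2 : 2 * finrank F ↥(Fx (ρ (el 1680)) ⊓ Kp (ρ (el 56)) ⊓ Fx (ρ (el 1687))) +
      finrank F ↥(Fx (ρ (el 1680)) ⊓ Fx (ρ (el 56))) ≤ ev (ρ (el 1680)) 1 := by
    rw [← inc_x, ← inc_y, ← inc_j]
    exact Sdim (MonoidHom.comp ρ (inc : T3.A 6 →* T3.A 7)) pcomm h2
  have k3 := inj1 (S ρ bM) (U := Fx (ρ (el 2071)) ⊓ Kp (ρ (el 1736)))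
    (V := Fx (ρ (el 1680)) ⊓ Kp (ρ (el 56)) ⊓ Fx (ρ (el 1687)))
    (fun v => ⟨⟨fx_of h2 cMx v, kp_of h2 (by decide +kernel) cMy v⟩, fx_of h2 cMj v⟩) fun v hv h => by
      have h1 := cert2 (ρ := ρ) h2 cM v
      rwa [h, map_zero, S0, S_u h2 hv] at h1
  have k4 : ev (ρ (el 1736)) 1 ≤ ev (ρ (el 2268)) 1 + _ := inj2 (S ρ bR1) (S ρ bR2) (U := Fx (ρ (el 1736)))
    (V := Fx (ρ (el 2268))) (V' := Fx (ρ (el 2071)) ⊓ Kp (ρ (el 1736))) (fx_of h2 cRw)
    (fun v => ⟨fx_of h2 cRs v, kp_of h2 (by decide +kernel) cRt v⟩) fun v hv h h' => by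
      have h1 := cert3 (ρ := ρ) h2 cR v
      rw [h, h', map_zero, map_zero, add_zero, S_chn h2 (mem_Fx.1 hv) (by decide +kernel) (k := 1) rfl, S_cons0,
        S_C h2] at h1
      exact z1 v (eq_of_add h2 h1).symm
  have k5 := dim21 ρ h2
  have k6 := dim9 ρ h2
  omega

/-- **the other block** -/
theorem blk1 (h2 : (2 : F) = 0) (hz : ∀ v : M, S ρ lZ v = 0 → v = 0) :
    ev (ρ (el 1680)) 1 + 4 * ev (ρ (el 1736)) 1 + 6 * ev (ρ (el 2268)) 1 + 8 * ev (ρ (el 2071)) 1 ≤ 4 * finrank F M := by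
  have hc : ∀ v : M, S ρ lC v = 0 → v = 0 := fun v hv => hz _ (hz _ (by rw [← S_C h2, hv]))
  have k1 : Fx (ρ (el 2071)) ⊓ Kp (ρ (el 1736)) = ⊥ := by
    rw [eq_bot_iff]
    intro v hv
    have h1 := cert1 (ρ := ρ) h2 cF1 v
    rw [S_u h2 hv] at h1
    exact hc v h1
  have k2 := inj1 (S ρ bF2) (U := Fx (ρ (el 1680)) ⊓ Fx (ρ (el 56))) (V := Fx (ρ (el 1680)) ⊓ Kp (ρ (el 56)))
    (fun v => ⟨fx_of h2 cF2x v, kp_of h2 (by decide +kernel) cF2y v⟩) fun v hv h => by
      have h1 := cert2 (ρ := ρ) h2 cF2 v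
      rw [h, map_zero, S_9 h2 hv] at h1
      exact hz v h1
  have k3 : ev (ρ (el 2268)) 1 ≤ _ := inj1 (S ρ bF3) (U := Fx (ρ (el 2268))) (V := Fx (ρ (el 1680)) ⊓ Fx (ρ (el 56)))
    (fun v => ⟨fx_of h2 cF3x v, fx_of h2 cF3y v⟩) fun v hv h => by
      have h1 := cert2 (ρ := ρ) h2 cF3 v
      rw [h, map_zero, S_chn h2 (mem_Fx.1 hv) (by decide +kernel) (k := 2) rfl] at h1
      exact hc v h1
  have k4 : ev (ρ (el 1680)) 1 = _ := split h2 (T := ρ (el 56)) (fun m => by
    rw [rml (c := 49) (by decide +kernel), rml (c := 0) (by decide +kernel), r0]) (Fx (ρ (el 1680))) fun m hm => by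
      rw [mem_Fx, rml (c := 1736) (by decide +kernel), ← rml (a := 56) (b := 1680) (by decide +kernel), mem_Fx.1 hm]
  have k5 := dim21 ρ h2
  have k6 := dim9 ρ h2
  rw [k1, finrank_bot] at k5
  omega

omit [Finite F] [FiniteDimensional F M] in
theorem S_sub {U : Submodule F M} (h : ∀ g, U ≤ U.comap (ρ g)) (l : List ℕ) (v : ↥U) :
    (S (ρ.subrepresentation U h) l v : M) = S ρ l v := by
  induction l with
  | nil => rfl
  | cons n l ih =>
    rw [S_cons, S_cons, LinearMap.add_apply, LinearMap.add_apply, Submodule.coe_add, ih]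
    rfl

/-- **the inequality** -/
theorem ineq7 (h2 : (2 : F) = 0) (hinv : ∀ v : M, (∀ g, ρ g v = v) → v = 0)
    (hco : ∀ f : Module.Dual F M, (∀ g m, f (ρ g m) = f m) → f = 0) :
    ev (ρ (el 1680)) 1 + 4 * ev (ρ (el 1736)) 1 + 6 * ev (ρ (el 2268)) 1 + 8 * ev (ρ (el 2071)) 1 ≤ 4 * finrank F M := by
  obtain ⟨n, hc, hn⟩ := ((LinearMap.eventually_isCompl_ker_pow_range_pow (S ρ lZ)).and
    (Filter.eventually_ge_atTop 1)).exists
  obtain ⟨n, rfl⟩ : ∃ k, n = k + 1 := ⟨n - 1, by omega⟩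
  have hp : ∀ g k v, ρ g ((S ρ lZ ^ k) v) = (S ρ lZ ^ k) (ρ g v) := fun g k => by
    induction k with
    | zero => exact fun _ => rfl
    | succ k ih => intro v; rw [pow_succ', Module.End.mul_apply, Module.End.mul_apply, Z_comm h2, ih]
  obtain ⟨U, hU⟩ : ∃ U, U = LinearMap.ker (S ρ lZ ^ (n + 1)) := ⟨_, rfl⟩
  obtain ⟨V, hV⟩ : ∃ V, V = LinearMap.range (S ρ lZ ^ (n + 1)) := ⟨_, rfl⟩
  have sU : ∀ g, U ≤ U.comap (ρ g) := fun g v hv => by
    rw [hU, LinearMap.mem_ker] at hv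
    rw [Submodule.mem_comap, hU, LinearMap.mem_ker, ← hp, hv, map_zero]
  have sV : ∀ g, V ≤ V.comap (ρ g) := fun g v hv => by
    rw [hV] at hv
    obtain ⟨m, rfl⟩ := hv
    rw [Submodule.mem_comap, hV, hp]
    exact ⟨_, rfl⟩
  rw [← hU, ← hV] at hc
  have k0 := blk0 (ρ.subrepresentation U sU) h2 (fun v hv => Subtype.ext (hinv v fun g => congrArg Subtype.val (hv g)))
    (fun f hf => by
      have h1 := hco (f.comp (U.projectionOnto V hc)) fun g m => by
        have h3 : m ∈ U ⊔ V := by rw [hc.sup_eq_top]; trivial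
        obtain ⟨a, ha, b, hb, rfl⟩ := Submodule.mem_sup.1 h3
        rw [LinearMap.comp_apply, LinearMap.comp_apply, map_add, map_add, map_add (U.projectionOnto V hc),
          Submodule.projectionOnto_apply_of_mem_right hc hb, Submodule.projectionOnto_apply_of_mem_right hc (sV g hb),
          Submodule.projectionOnto_apply_left hc ⟨a, ha⟩, Submodule.projectionOnto_apply_left hc ⟨_, sU g ha⟩,
          add_zero, add_zero]
        exact hf g ⟨a, ha⟩
      refine LinearMap.ext fun a => ?_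
      have h3 := LinearMap.congr_fun h1 a
      rwa [LinearMap.comp_apply, Submodule.projectionOnto_apply_left hc] at h3) (n := n + 1) (by
      have h1 : ∀ k (v : ↥U), ((S (ρ.subrepresentation U sU) lZ ^ k) v : M) = (S ρ lZ ^ k) v := fun k => by
        induction k with
        | zero => exact fun _ => rfl
        | succ k ih => intro v; rw [pow_succ, pow_succ, Module.End.mul_apply, Module.End.mul_apply, ih, S_sub]
      refine LinearMap.ext fun v => Subtype.ext ?_
      rw [h1]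
      exact hU.le v.2)
  have k1 := blk1 (ρ.subrepresentation V sV) h2 fun v hv => by
    have h1 := congrArg Subtype.val hv
    rw [S_sub] at h1
    refine Subtype.ext ((Submodule.disjoint_def.1 hc.disjoint) _ ?_ v.2)
    rw [hU, LinearMap.mem_ker, pow_succ, Module.End.mul_apply, h1]
    exact map_zero _
  have e : ∀ g, ev (ρ g) 1 ≤ ev (ρ.subrepresentation U sU g) 1 + ev (ρ.subrepresentation V sV g) 1 := fun g =>
    ev_le hc (fun _ => rfl) fun _ => rfl
  have e1 := e (el 1680)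
  have e2 := e (el 1736)
  have e3 := e (el 2268)
  have e4 := e (el 2071)
  have e5 := Submodule.finrank_add_eq_of_isCompl hc
  omega

end dims

end Cfsg.Agent.E8A.C72
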