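import Cfsg.Agent.R2.T1.T2p.Msk
import Cfsg.Agent.R2.T1.N7.Grp

/-!
# Identities in the group algebra of `A₇` in characteristic 2 (helper8)

* `el n` : the element with the number `n`; `S ρ l` : the sum of the operators of the elements with numbers in `l`;
* `tot L` : the mask of `∑ S A * S B`, `(A, B) ∈ L`; `cert` : the operator vanishes if the mask is `0`.
-/

set_option autoImplicit false
set_option maxRecDepth 100000

namespace Cfsg.Agent.E8A.C72

open Module Equiv Equiv.Perm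
open Cfsg.Agent.R2.T1.Odd Cfsg.Agent.R2.T1.Msk
open Cfsg.Agent.R2.T1.N7 (A7 P_ap mul_ap)

/-- a factor -/
def pc (k i : ℕ) : List (ℕ × ℕ) := bif Nat.beq i 0 then [] else [(k - i, k), (0, 1)]

/-- the word with the number `n` -/
def wn (n : ℕ) : List (ℕ × ℕ) :=
  pc 6 (n % 7) ++ (pc 5 (n / 7 % 6) ++ (pc 4 (n / 42 % 5) ++ (pc 3 (n / 210 % 4) ++ pc 2 (n / 840 % 3))))

theorem vl_pc {k i : ℕ} (hk : k < 7) (hi : i < k + 1) : vl 7 (pc k i) = true := by
  have h : ∀ k < 7, ∀ i < k + 1, vl 7 (pc k i) = true := by decide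
  exact h k hk i hi

theorem vl_wn (n : ℕ) : vl 7 (wn n) = true :=
  vl_append (vl_pc (by norm_num) (Nat.mod_lt _ (by norm_num))) (vl_append (vl_pc (by norm_num) (Nat.mod_lt _ (by norm_num)))
    (vl_append (vl_pc (by norm_num) (Nat.mod_lt _ (by norm_num))) (vl_append (vl_pc (by norm_num)
      (Nat.mod_lt _ (by norm_num))) (vl_pc (by norm_num) (Nat.mod_lt _ (by norm_num))))))

/-- the element with the number `n` -/
noncomputable def el (n : ℕ) : A7 := P 7 (wn n)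

theorem el_zero : el 0 = 1 := P_nil

theorem el_ap (n : ℕ) (i : Fin 7) : ((el n : Perm (Fin 7)) i).val = ap (wn n) i.val := P_ap (vl_wn n) i

/-- the packed images -/
def pk (a0 a1 a2 a3 a4 a5 a6 : ℕ) : ℕ := a0 + 8 * (a1 + 8 * (a2 + 8 * (a3 + 8 * (a4 + 8 * (a5 + 8 * a6)))))

/-- the code of an element -/
def cod (n : ℕ) : ℕ :=
  pk (ap (wn n) 0) (ap (wn n) 1) (ap (wn n) 2) (ap (wn n) 3) (ap (wn n) 4) (ap (wn n) 5) (ap (wn n) 6)

/-- the shifts -/
def sh (n : ℕ) : ℕ × ℕ × ℕ × ℕ × ℕ :=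
  (3 * ap (wn n) 0, 3 * ap (wn n) 1, 3 * ap (wn n) 2, 3 * ap (wn n) 3, 3 * ap (wn n) 4)

/-- a digit -/
def dg (a k : ℕ) : ℕ := Nat.mod (Nat.shiftRight a k) 8

/-- the index of a product -/
def ix (a : ℕ) (b : ℕ × ℕ × ℕ × ℕ × ℕ) : ℕ :=
  Nat.add (dg a b.1) (Nat.mul 7 (Nat.add (dg a b.2.1) (Nat.mul 7 (Nat.add (dg a b.2.2.1) (Nat.mul 7
    (Nat.add (dg a b.2.2.2.1) (Nat.mul 7 (dg a b.2.2.2.2))))))))

/-- the index of an element -/
def idx (g : A7) : ℕ := ((g : Perm (Fin 7)) 0).val + 7 * (((g : Perm (Fin 7)) 1).val + 7 * (((g : Perm (Fin 7)) 2).val +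
  7 * (((g : Perm (Fin 7)) 3).val + 7 * ((g : Perm (Fin 7)) 4).val)))

theorem idx_lt (g : A7) : idx g < 16807 := by
  unfold idx
  omega

theorem eq_one_of {k : A7} (h0 : (k : Perm (Fin 7)) 0 = 0) (h1 : (k : Perm (Fin 7)) 1 = 1) (h2 : (k : Perm (Fin 7)) 2 = 2)
    (h3 : (k : Perm (Fin 7)) 3 = 3) (h4 : (k : Perm (Fin 7)) 4 = 4) : k = 1 := by
  have hs : sign (k : Perm (Fin 7)) = 1 := mem_alternatingGroup.1 k.2
  have inj := (k : Perm (Fin 7)).injective
  have n5 : ∀ j : Fin 7, (k : Perm (Fin 7)) j = j → j ≠ 5 → (k : Perm (Fin 7)) 5 ≠ j := fun j hj hj' h =>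
    hj' (inj (h.trans hj.symm)).symm
  have n6 : ∀ j : Fin 7, (k : Perm (Fin 7)) j = j → j ≠ 6 → (k : Perm (Fin 7)) 6 ≠ j := fun j hj hj' h =>
    hj' (inj (h.trans hj.symm)).symm
  have key : ∀ a : Fin 7, a ≠ 0 → a ≠ 1 → a ≠ 2 → a ≠ 3 → a ≠ 4 → a = 5 ∨ a = 6 := by decide
  have k5 := key _ (n5 0 h0 (by decide)) (n5 1 h1 (by decide)) (n5 2 h2 (by decide)) (n5 3 h3 (by decide))
    (n5 4 h4 (by decide))
  have k6 := key _ (n6 0 h0 (by decide)) (n6 1 h1 (by decide)) (n6 2 h2 (by decide)) (n6 3 h3 (by decide))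
    (n6 4 h4 (by decide))
  have ne : (k : Perm (Fin 7)) 5 ≠ (k : Perm (Fin 7)) 6 := fun h => absurd (inj h) (by decide)
  have all : ∀ i : Fin 7, i = 0 ∨ i = 1 ∨ i = 2 ∨ i = 3 ∨ i = 4 ∨ i = 5 ∨ i = 6 := by decide
  rcases k5 with k5 | k5
  · have k6' : (k : Perm (Fin 7)) 6 = 6 := k6.resolve_left fun h => ne (k5.trans h.symm)
    refine Subtype.ext (Perm.ext fun i => ?_)
    rcases all i with rfl | rfl | rfl | rfl | rfl | rfl | rfl <;> assumption
  · have k6' : (k : Perm (Fin 7)) 6 = 5 := k6.resolve_right fun h => ne (k5.trans h.symm)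
    have e : (k : Perm (Fin 7)) = swap 5 6 := by
      refine Perm.ext fun i => ?_
      rcases all i with rfl | rfl | rfl | rfl | rfl | rfl | rfl <;> assumption
    rw [e, sign_swap (by decide)] at hs
    exact absurd hs (by decide)

theorem idx_inj {g h : A7} (e : idx g = idx h) : g = h := by
  have key : ∀ i : Fin 7, ((g : Perm (Fin 7)) i).val = ((h : Perm (Fin 7)) i).val →
      ((h⁻¹ * g : A7) : Perm (Fin 7)) i = i := fun i hi => by
    rw [mul_ap, Fin.ext hi]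
    exact Cfsg.Agent.R2.T1.N7.inv_ap rfl
  unfold idx at e
  have h1 : h⁻¹ * g = 1 :=
    eq_one_of (key 0 (by omega)) (key 1 (by omega)) (key 2 (by omega)) (key 3 (by omega)) (key 4 (by omega))
  exact (inv_mul_eq_one.1 h1).symm

theorem dg_pk {a0 a1 a2 a3 a4 a5 a6 : ℕ} (h0 : a0 < 7) (h1 : a1 < 7) (h2 : a2 < 7) (h3 : a3 < 7) (h4 : a4 < 7) (h5 : a5 < 7)
    (h6 : a6 < 7) : dg (pk a0 a1 a2 a3 a4 a5 a6) 0 = a0 ∧ dg (pk a0 a1 a2 a3 a4 a5 a6) 3 = a1 ∧
    dg (pk a0 a1 a2 a3 a4 a5 a6) 6 = a2 ∧ dg (pk a0 a1 a2 a3 a4 a5 a6) 9 = a3 ∧ dg (pk a0 a1 a2 a3 a4 a5 a6) 12 = a4 ∧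
    dg (pk a0 a1 a2 a3 a4 a5 a6) 15 = a5 ∧ dg (pk a0 a1 a2 a3 a4 a5 a6) 18 = a6 := by
  have e : ∀ a k, dg a k = a / 2 ^ k % 8 := fun a k => by
    show (a >>> k) % 8 = _
    rw [Nat.shiftRight_eq_div_pow]
  simp only [e, pk]
  omega

theorem dg_cod (n : ℕ) (i : Fin 7) : dg (cod n) (3 * i.val) = ((el n : Perm (Fin 7)) i).val := by
  have h : ∀ i : Fin 7, ap (wn n) i.val < 7 := fun i => by rw [← el_ap]; exact Fin.is_lt _
  have k := dg_pk (h 0) (h 1) (h 2) (h 3) (h 4) (h 5) (h 6)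
  rw [el_ap]
  have all : ∀ i : Fin 7, i = 0 ∨ i = 1 ∨ i = 2 ∨ i = 3 ∨ i = 4 ∨ i = 5 ∨ i = 6 := by decide
  rcases all i with rfl | rfl | rfl | rfl | rfl | rfl | rfl
  exacts [k.1, k.2.1, k.2.2.1, k.2.2.2.1, k.2.2.2.2.1, k.2.2.2.2.2.1, k.2.2.2.2.2.2]

theorem ix_eq (n m : ℕ) : ix (cod n) (sh m) = idx (el n * el m) := by
  have h : ∀ i : Fin 7, dg (cod n) (3 * ap (wn m) i.val) = (((el n * el m : A7) : Perm (Fin 7)) i).val := fun i => by
    rw [← el_ap, dg_cod, mul_ap]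
  unfold idx
  rw [← h 0, ← h 1, ← h 2, ← h 3, ← h 4]
  rfl

/-- the check of a product -/
def ml (a b c : ℕ) : Bool := Nat.beq (ix (cod a) (sh b)) (ix (cod c) (sh 0))

theorem el_mul {a b c : ℕ} (h : ml a b c = true) : el a * el b = el c := by
  have h1 := nb.1 h
  rw [ix_eq, ix_eq, el_zero, mul_one] at h1
  exact idx_inj h1

/-- the inner loop -/
def inn (a : ℕ) : List (ℕ × ℕ × ℕ × ℕ × ℕ) → ℕ
  | [] => 0
  | b :: B => Nat.xor (Nat.pow 2 (ix a b)) (inn a B)

theorem inn_realised : True := by have := @inn.eq_def; trivial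

/-- the outer loop -/
def out (B : List (ℕ × ℕ × ℕ × ℕ × ℕ)) : List ℕ → ℕ
  | [] => 0
  | n :: A => Nat.xor (inn (cod n) B) (out B A)

theorem out_realised : True := by have := @out.eq_def; trivial

/-- the mask of a sum of products -/
def tot : List (List ℕ × List ℕ) → ℕ
  | [] => 0
  | x :: L => Nat.xor (out (x.2.map sh) x.1) (tot L)

theorem tot_realised : True := by have := @tot.eq_def; trivial

section

variable {F : Type*} [Field F] {M : Type*} [AddCommGroup M] [Module F M] (ρ : Representation F A7 M)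

/-- the sum of the operators -/
noncomputable def S (l : List ℕ) : Module.End F M := (l.map fun n => ρ (el n)).sum

theorem S_nil : S ρ [] = 0 := rfl

theorem S_cons (n : ℕ) (l : List ℕ) : S ρ (n :: l) = ρ (el n) + S ρ l := rfl

theorem S_one (n : ℕ) : S ρ [n] = ρ (el n) := by rw [S_cons, S_nil, add_zero]

theorem S_zero : S ρ [0] = 1 := by rw [S_one, el_zero, map_one]

open Classical in
/-- the operators, by their indices -/
noncomputable def tb (N : ℕ) : List (Module.End F M) :=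
  (List.range N).map fun k => if h : ∃ g, idx g = k then ρ h.choose else 0

theorem tb_getD {N : ℕ} {g : A7} (h : idx g < N) : (tb ρ N).getD (idx g) 0 = ρ g := by
  have h1 : ∃ g', idx g' = idx g := ⟨g, rfl⟩
  unfold tb
  rw [List.getD_eq_getElem _ _ (by rw [List.length_map, List.length_range]; exact h), List.getElem_map,
    List.getElem_range, dif_pos h1, idx_inj h1.choose_spec]

variable {ρ}

theorem two_end (h2 : (2 : F) = 0) (w : Module.End F M) : w + w = 0 := by rw [← two_smul F w, h2, zero_smul]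

theorem inn_spec (h2 : (2 : F) = 0) {N : ℕ} (hN : 16807 ≤ N) (n : ℕ) (B : List ℕ) :
    sumM (tb ρ N) (inn (cod n) (B.map sh)) = ρ (el n) * S ρ B := by
  induction B with
  | nil => rw [S_nil, mul_zero]; exact sumM_zero _
  | cons m B ih =>
    show sumM _ (2 ^ ix (cod n) (sh m) ^^^ inn (cod n) (B.map sh)) = _
    rw [sumM_xor (two_end h2), ih, sumM_pow, ix_eq, tb_getD ρ ((idx_lt _).trans_le hN), S_cons, mul_add, map_mul]

theorem out_spec (h2 : (2 : F) = 0) {N : ℕ} (hN : 16807 ≤ N) (A B : List ℕ) :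
    sumM (tb ρ N) (out (B.map sh) A) = S ρ A * S ρ B := by
  induction A with
  | nil => rw [S_nil, zero_mul]; exact sumM_zero _
  | cons n A ih =>
    show sumM _ (inn (cod n) (B.map sh) ^^^ out (B.map sh) A) = _
    rw [sumM_xor (two_end h2), ih, inn_spec h2 hN, S_cons, add_mul]

theorem tot_spec (h2 : (2 : F) = 0) {N : ℕ} (hN : 16807 ≤ N) (L : List (List ℕ × List ℕ)) :
    sumM (tb ρ N) (tot L) = (L.map fun x => S ρ x.1 * S ρ x.2).sum := by
  induction L with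
  | nil => exact sumM_zero _
  | cons x L ih =>
    show sumM _ (out (x.2.map sh) x.1 ^^^ tot L) = _
    rw [sumM_xor (two_end h2), ih, out_spec h2 hN, List.map_cons, List.sum_cons]

theorem cert (h2 : (2 : F) = 0) {L : List (List ℕ × List ℕ)} (h : Nat.beq (tot L) 0 = true) :
    (L.map fun x => S ρ x.1 * S ρ x.2).sum = 0 := by
  obtain ⟨N, hN⟩ : ∃ N, 16807 ≤ N := ⟨_, le_rfl⟩
  rw [← tot_spec h2 hN, nb.1 h, sumM_zero]

theorem cert1 (h2 : (2 : F) = 0) {A B : List ℕ} (h : Nat.beq (tot [(A, B)]) 0 = true) (v : M) :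
    S ρ A (S ρ B v) = 0 := by
  have h1 := cert (ρ := ρ) h2 h
  rw [List.map_cons, List.map_nil, List.sum_cons, List.sum_nil, add_zero] at h1
  exact LinearMap.congr_fun h1 v

theorem eq_of_add (h2 : (2 : F) = 0) {a b : M} (h : a + b = 0) : a = b := by
  have h1 : b + b = 0 := by rw [← two_smul F b, h2, zero_smul]
  rw [← h1] at h
  exact add_right_cancel h

theorem cert2 (h2 : (2 : F) = 0) {A B C D : List ℕ} (h : Nat.beq (tot [(A, B), (C, D)]) 0 = true) (v : M) :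
    S ρ A (S ρ B v) = S ρ C (S ρ D v) := by
  have h1 := cert (ρ := ρ) h2 h
  simp only [List.map_cons, List.map_nil, List.sum_cons, List.sum_nil, add_zero] at h1
  exact eq_of_add h2 (LinearMap.congr_fun h1 v)

theorem cert3 (h2 : (2 : F) = 0) {A B C D E G : List ℕ} (h : Nat.beq (tot [(A, B), (C, D), (E, G)]) 0 = true) (v : M) :
    S ρ A (S ρ B v) = S ρ C (S ρ D v) + S ρ E (S ρ G v) := by
  have h1 := cert (ρ := ρ) h2 h
  simp only [List.map_cons, List.map_nil, List.sum_cons, List.sum_nil, add_zero] at h1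
  exact eq_of_add h2 (LinearMap.congr_fun h1 v)

end

end Cfsg.Agent.E8A.C72
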