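import Cfsg.Agent.E8A.C72.Blk
import Cfsg.Agent.E8A.Two.Wcj
import Cfsg.Agent.E8A.Inf.Five
import Cfsg.Agent.E8A.Asm.Iface

/-!
# The box C72: `A₇` in characteristic 2 (helper8)
-/

set_option autoImplicit false
set_option maxRecDepth 100000

namespace Cfsg.Agent.E8A.C72

open Cfsg Cfsg.Lie Module
open Cfsg.Agent.R2.T1.Odd
open Cfsg.Agent.R2.T1.N7 (A7)
open Cfsg.Agent.H952.F4 (MaxAlt ev)
open Cfsg.Agent.E8A.Inf (finrank_L8)

universe u

theorem el_ne {n : ℕ} (h : cd 7 (wn n) ≠ cd 7 []) : el n ≠ 1 := by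
  rw [← P_nil]
  exact P_ne (m := 7) le_rfl (vl_wn n) (by decide) h

theorem el_pow {n k : ℕ} (h : cd 7 (pwl (wn n) k) = cd 7 []) : el n ^ k = 1 := P_pow_one (m := 7) le_rfl (vl_wn n) h

theorem el_cj {a b c d : ℕ} (h : (ml a b d && ml c a d) = true) : el a * el b * (el a)⁻¹ = el c := by
  rw [Bool.and_eq_true] at h
  rw [el_mul h.1, ← el_mul h.2, mul_inv_cancel_right]

/-- **C72** -/
theorem c72 : CASE.{u} 7 fun p => p = 2 := by
  intro F _ _ p _ _ hp H φ hM hfx
  subst hp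
  have h2 : (2 : F) = 0 := by exact_mod_cast CharP.cast_eq_zero F 2
  let ρ : Representation F A7 (L8 F) := (LK F).comp φ
  have hρ : ∀ a, ρ a = LK F (φ a) := fun _ => rfl
  have hne : ∀ {n : ℕ}, cd 7 (wn n) ≠ cd 7 [] → φ (el n) ≠ 1 := fun h h1 => el_ne h (hM.inj (h1.trans (map_one φ).symm))
  have hpw : ∀ {n k : ℕ}, cd 7 (pwl (wn n) k) = cd 7 [] → φ (el n) ^ k = 1 := fun h => by rw [← map_pow, el_pow h, map_one]
  have hcj : ∀ {a b c d : ℕ}, (ml a b d && ml c a d) = true → ev (LK F (φ (el c))) 1 = ev (LK F (φ (el b))) 1 := fun h => by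
    rw [← el_cj h, map_mul φ, map_mul φ, map_inv φ, Inf.ev_conj]
  have k1 := ineq7 ρ h2 hfx fun f hf => Inf.NoFx.dual hfx f hf
  rw [finrank_L8, hρ, hρ, hρ, hρ] at k1
  have k2 := Inf.ge_five (x := φ (el 2268)) (hpw (by decide +kernel))
  have k3 := Inf.seven_rat (by exact_mod_cast odd_ne h2 3) (x := φ (el 2071)) (hpw (by decide +kernel))
    (hne (by decide +kernel)) (by
      rw [isConj_iff]
      refine ⟨φ (el 1736), ?_⟩
      rw [← map_inv, ← map_mul, ← map_mul, el_cj (c := 2518) (d := 1643) (by decide +kernel), pow_two, ← map_mul,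
        el_mul (c := 2518) (by decide +kernel)])
  have e1 : el 1680 * el 56 = el 1736 := el_mul (by decide +kernel)
  have e2 : el 1680 * (el 56)⁻¹ = el 1729 := by
    rw [mul_inv_eq_iff_eq_mul, el_mul (c := 1680) (by decide +kernel)]
  have k4 := Two.t33 (by exact_mod_cast odd_ne h2 1) (x := φ (el 1680)) (y := φ (el 56)) (hpw (by decide +kernel))
    (hpw (by decide +kernel)) (Commute.map (e1.trans (el_mul (by decide +kernel)).symm) φ) (hne (by decide +kernel))
    (by rw [← map_mul, e1]; exact hne (by decide +kernel)) (hcj (a := 2422) (d := 1582) (by decide +kernel))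
    (by
      rw [← map_inv, ← map_mul, ← map_mul, e1, e2]
      exact hcj (a := 2499) (d := 2219) (by decide +kernel))
  rw [← map_mul, e1] at k4
  omega

end Cfsg.Agent.E8A.C72
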